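import Cfsg.Agent.Hz.E
import Cfsg.Agent.PLocal.PSolv
import Cfsg.Agent.BMod.Nilp
import Cfsg.Agent.BMod.Cyc3
import Cfsg.Agent.PF.P14c

/-! One class of nontrivial `p`-elements with `p`-nilpotent centralisers forces abelian Sylow
`p`-subgroups (`OneCl.comm`); the `p`-solvable analogue (`comm_of_pSolv`). -/

set_option autoImplicit false
set_option linter.unusedSectionVars false
set_option linter.unusedVariables false

namespace Cfsg.Agent.Hz3

open Cfsg Cfsg.Agent.Block Cfsg.Agent.Transfer Finset Subgroup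

universe u

variable {G : Type*} [Group G] [Finite G] {p : ℕ} [hp : Fact p.Prime] {x y z : G}

theorem frob {W L : Type*} [CommGroup W] [Group L] [Finite L] (ρ : L →* MulAut W) (A : Subgroup L)
    [A.Normal] {c : L} (hc : c ∈ A) (hf : ∀ w, ρ c w = w → w = 1) {a : L}
    (h2 : ∀ c ∈ A, (a * c) ^ p = 1 ∧ ∀ w, ∏ i ∈ range p, ρ ((a * c) ^ i) w = 1) (w : W) :
    w ^ Nat.card A = 1 := by
  classical
  have := Fintype.ofFinite A
  have h1 : ∏ d : A, ρ d w = 1 := hf _ (by
    rw [map_prod, ← Equiv.prod_comp (Equiv.mulLeft (⟨c, hc⟩ : A)) fun d : A => ρ d w]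
    simp)
  have h3 : ∀ i, i ≠ 0 → i < p → ∏ d : A, ρ ((a * d) ^ i) w = 1 := fun i i0 hi => by
    have m : ∀ d : A, (a ^ i)⁻¹ * (a * d) ^ i ∈ A := fun d => by
      rw [← QuotientGroup.eq, QuotientGroup.mk_pow, QuotientGroup.mk_pow, QuotientGroup.mk_mul_of_mem _ d.2]
    obtain ⟨k, -, hk⟩ := Nat.exists_mul_mod_eq_one_of_coprime
      (Nat.coprime_of_lt_prime i0 hi hp.out).symm hp.out.one_lt
    have e : ∀ d : A, ((a * d) ^ i) ^ k = a * d := fun d => by
      rw [← pow_mul, pow_eq_pow_mod _ (h2 d d.2).1, hk, pow_one]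
    have b : Function.Bijective fun d : A => (⟨_, m d⟩ : A) :=
      Finite.injective_iff_bijective.1 fun d d' h => Subtype.ext (mul_left_cancel (a := a) (by
        rw [← e d, ← e d', mul_left_cancel (congrArg Subtype.val h)]))
    have := congrArg (ρ (a ^ i)) ((b.prod_comp fun d : A => ρ d w).trans h1)
    rw [map_one, map_prod] at this
    simpa only [← MulAut.mul_apply, ← map_mul, mul_inv_cancel_left] using this
  have h4 : ∏ i ∈ range p, ∏ d : A, ρ ((a * d) ^ i) w = 1 := by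
    rw [prod_comm]
    exact prod_eq_one fun d _ => (h2 d d.2).2 w
  rw [prod_eq_single 0 (fun i hi i0 => h3 i i0 (mem_range.1 hi)) (by simp [hp.out.ne_zero])] at h4
  simpa using h4

/-- One class of nontrivial `p`-elements, with `p`-nilpotent centralisers. -/
structure OneCl (p : ℕ) (G : Type*) [Group G] : Prop where
  cj : ∀ x y : G, x ≠ 1 → y ≠ 1 → (∃ k, orderOf x = p ^ k) → (∃ k, orderOf y = p ^ k) → IsConj x y
  nil : ∀ x : G, x ≠ 1 → (∃ k, orderOf x = p ^ k) → HasNormalPComplement p (centralizer ({x} : Set G))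

theorem expo_of {D : Subgroup G} (hD : IsPGroup p D) (h : ∀ x ∈ D, ∀ y ∈ D, x ≠ 1 → y ≠ 1 → IsConj x y)
    (hx : x ∈ D) : x ^ p = 1 := by
  by_cases x1 : x = 1
  · simp [x1]
  obtain ⟨k, hk⟩ := orderOf_eq_pow_of_mem hD hx
  have h1 : orderOf (x ^ (orderOf x / p)) = p := orderOf_pow_orderOf_div (orderOf_pos x).ne'
    (hk ▸ dvd_pow_self p fun e => x1 (orderOf_eq_one_iff.1 (by rw [hk, e, pow_zero])))
  rw [← orderOf_dvd_iff_pow_eq_one, Small.orderOf_eq_of_isConj (h x hx _ (pow_mem hx _) x1 fun e => by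
    rw [e, orderOf_one] at h1; exact hp.out.ne_one h1.symm), h1]

theorem OneCl.expo (h : OneCl p G) {D : Subgroup G} (hD : IsPGroup p D) (hx : x ∈ D) : x ^ p = 1 :=
  expo_of hD (fun x hx y hy x1 y1 =>
    h.cj x y x1 y1 (orderOf_eq_pow_of_mem hD hx) (orderOf_eq_pow_of_mem hD hy)) hx

theorem OneCl.free (h : OneCl p G) {W : Subgroup G} (hW : IsPGroup p W) (hy : y ∈ normalizer (W : Set G))
    (y' : ¬ p ∣ orderOf y) (x1 : x ≠ 1) (hx : ∃ k, orderOf x = p ^ k) (hc : Commute y x) {w : G}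
    (hw : w ∈ W) (hw' : Commute w x) : Commute w y := by
  have := mem_centralizer_of_hasNormalPComplement (h.nil x x1 hx) (Q := W.subgroupOf _)
    (hW.comap_of_injective _ (subtype_injective _)) (g := ⟨y, mem_centralizer_singleton_iff.2 hc⟩)
    (mem_normalizer_iff.2 fun v => mem_normalizer_iff.1 hy v)
    (by rw [← Subgroup.orderOf_coe]; exact (hp.out.coprime_iff_not_dvd.2 y').symm)
    ⟨w, mem_centralizer_singleton_iff.2 hw'⟩ hw
  exact congrArg Subtype.val this

theorem OneCl.act (h : OneCl p G) (p2 : p ≠ 2) {W H : Subgroup G} (hW : IsPGroup p W)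
    (ab : IsMulCommutative W) (hH : H ≤ normalizer (W : Set G))
    (hO : pCore p (W.normalizerMonoidHom.comp (inclusion hH)).range = ⊥) :
    ¬ p ∣ Nat.card (W.normalizerMonoidHom.comp (inclusion hH)).range := fun hd => by
  classical
  letI : CommGroup W := { (inferInstance : Group W) with mul_comm := ab.is_comm.comm }
  set φ := W.normalizerMonoidHom.comp (inclusion hH) with hφ
  have ev : ∀ (g : H) (w : W), (φ g w : G) = g * w * (g : G)⁻¹ := fun _ _ => rfl
  have f0 : ∀ (g : H) (x : G), ¬ p ∣ orderOf g → x ≠ 1 → (∃ k, orderOf x = p ^ k) → Commute (g : G) x →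
      x ∈ normalizer (W : Set G) → W ≠ ⊥ → φ g = 1 := fun g x g' x1 hx hc xn W1 => by
    rw [← Subgroup.orderOf_coe] at g'
    obtain ⟨k, hk⟩ := hx
    obtain ⟨w, hw, w1⟩ : ∃ w ∈ W ⊓ centralizer (zpowers x : Set G), w ≠ 1 := by
      by_contra! e
      have e1 := card_modEq_card_inf_centralizer (Q := W) (isPGroup_zpowers_of_pow_eq_one (k := k)
        (by rw [← hk, pow_orderOf_eq_one])) (zpowers_le.2 xn)
      rw [(eq_bot_iff_forall _).2 e, card_bot] at e1
      obtain ⟨j, j0, hj⟩ := hW.nontrivial_iff_card.1 ((nontrivial_iff_ne_bot _).2 W1)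
      rw [hj] at e1
      exact hp.out.not_dvd_one ((e1.dvd_iff dvd_rfl).1 (dvd_pow_self p j0.ne'))
    have e1 := h.free hW (hH g.2) g' x1 ⟨k, hk⟩ hc hw.1 (hw.2 x (mem_zpowers x)).symm
    ext v
    rw [ev, ← (h.free hW (hH g.2) g' w1 (orderOf_eq_pow_of_mem hW hw.1) e1.symm v.2
      (congrArg Subtype.val (mul_comm v ⟨w, hw.1⟩))).eq, mul_inv_cancel_right]
    rfl
  have f1 : ∀ g : φ.range, ¬ p ∣ orderOf g → g ≠ 1 → ∀ w, g.1 w = w → w = 1 := by
    rintro ⟨_, g, rfl⟩ g' g1 w hw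
    by_contra w1
    have e1 : φ (regPart p g) = φ g := by
      rw [← regPart_map, regPart_of_not_dvd (by rwa [← Subgroup.orderOf_coe] at g')]
    refine g1 (Subtype.ext (e1.symm.trans (f0 _ w (not_dvd_orderOf_regPart p g)
      (fun e => w1 (Subtype.ext e)) (orderOf_eq_pow_of_mem hW w.2) ?_ (le_normalizer w.2) ?_)))
    · exact mul_inv_eq_iff_eq_mul.1 ((ev _ w).symm.trans (congrArg Subtype.val (e1 ▸ hw)))
    · exact (nontrivial_iff_ne_bot _).1 ⟨w, 1, w1⟩
  obtain ⟨a, ha⟩ := exists_prime_orderOf_dvd_card' p hd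
  have W1 : W ≠ ⊥ := by
    rintro rfl
    rw [show a = 1 from Subtype.ext (by ext v; rw [Subsingleton.elim (a.1 v) v]; rfl), orderOf_one] at ha
    exact hp.out.ne_one ha.symm
  have f2 : ∀ g : φ.range, p ∣ orderOf g → g ^ p = 1 ∧ ∀ w, ∏ i ∈ range p, (g ^ i).1 w = 1 := by
    rintro ⟨_, g, rfl⟩ g'
    obtain ⟨k, hk⟩ := IsPPart.orderOf_eq (isPPart_pPart p g)
    have x1 : pPart p g ≠ 1 := fun e => pPart_eq_one_iff.1 e
      ((by rwa [← Subgroup.orderOf_coe] at g' : p ∣ orderOf (φ g)).trans (orderOf_map_dvd φ g))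
    have e1 : φ g = φ (pPart p g) := by
      conv_lhs => rw [← pPart_mul_regPart p g, map_mul, f0 (regPart p g) (pPart p g : H)
        (not_dvd_orderOf_regPart p g) (by simpa using x1) ⟨k, by rw [Subgroup.orderOf_coe, hk]⟩
        (congrArg Subtype.val (commute_pPart_regPart p g).symm.eq) (hH (pPart p g).2) W1, mul_one]
    set x := pPart p g
    have hR : IsPGroup p (zpowers (x : G) ⊔ W : Subgroup G) :=
      (isPGroup_zpowers_of_pow_eq_one (k := k) (by
        rw [← Subgroup.coe_pow, ← hk, pow_orderOf_eq_one, OneMemClass.coe_one])).to_sup_of_normal_right' hW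
        (zpowers_le.2 (hH x.2))
    have e2 : (x : G) ^ p = 1 := h.expo hR (mem_sup_left (mem_zpowers _))
    refine ⟨Subtype.ext ?_, fun w => Subtype.ext ?_⟩
    · change φ g ^ p = 1
      rw [e1, ← map_pow, show x ^ p = 1 from Subtype.ext e2, map_one]
    · have e3 : ∀ n, ((w : G) * x) ^ n = (∏ i ∈ range n, φ (x ^ i) w : W) * (x : G) ^ n := fun n => by
        induction n with
        | zero => simp
        | succ n ih => rw [pow_succ, ih, prod_range_succ, Subgroup.coe_mul, ev, Subgroup.coe_pow]; group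
      have e4 := h.expo hR (mul_mem (mem_sup_right w.2) (mem_sup_left (mem_zpowers _)))
      rw [e3, e2, mul_one] at e4
      simpa only [SubgroupClass.coe_pow, e1, ← map_pow, OneMemClass.coe_one] using e4
  by_cases he : 2 ∣ Nat.card φ.range
  · obtain ⟨t, ht⟩ := exists_prime_orderOf_dvd_card' 2 he
    have t2 : t * t = 1 := by rw [← sq, ← ht, pow_orderOf_eq_one]
    have t' : ¬ p ∣ orderOf t := fun e =>
      p2 ((Nat.prime_dvd_prime_iff_eq hp.out Nat.prime_two).1 (ht ▸ e))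
    have t1 : t ≠ 1 := by rintro rfl; simp at ht
    have e1 : ∀ w, t.1 w = w⁻¹ := fun w => eq_inv_of_mul_eq_one_left (f1 t t' t1 _ (by
      rw [map_mul, ← MulAut.mul_apply, ← Subgroup.coe_mul, t2, mul_comm]; rfl))
    have e2 : Commute a t := Subtype.ext (by ext w; simp [e1])
    have e3 := e2.orderOf_mul_eq_mul_orderOf_of_coprime (ha ▸ hp.out.coprime_iff_not_dvd.2 t')
    have e4 := orderOf_dvd_of_pow_eq_one (f2 (a * t) (e3 ▸ ha ▸ dvd_mul_right _ _)).1
    rw [e3, ha, ht] at e4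
    have := Nat.le_of_dvd hp.out.pos e4
    have := hp.out.pos
    omega
  have := PF.Feit_Thompson (G := φ.range) (Nat.odd_iff.2 (by omega))
  have : Nontrivial φ.range := ⟨a, 1, by rintro rfl; simp [hp.out.ne_one.symm] at ha⟩
  obtain ⟨c, hc, c1⟩ := (bot_or_exists_ne_one _).resolve_left
    ((PLocal.core_ne_bot_of_pSolv (p := p) (G := φ.range) PLocal.pSolv_of_isSolvable).resolve_left
      (not_not.2 hO))
  have n1 := Solv.not_dvd_card_pPrimeCore p φ.range
  have := (nontrivial_iff_ne_bot _).2 W1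
  obtain ⟨w, w1⟩ := exists_ne (1 : W)
  have e := frob (p := p) φ.range.subtype (pPrimeCore p _) hc
    (f1 c (fun e => n1 (e.trans (Subgroup.orderOf_dvd_natCard _ hc))) c1) (a := a) (fun c hc => f2 _ (by
      by_contra e
      have e1 := orderOf_map_dvd (QuotientGroup.mk' (pPrimeCore p φ.range)) (a * c)
      have e2 := ha ▸ orderOf_map_dvd (QuotientGroup.mk' (pPrimeCore p φ.range)) a
      rw [QuotientGroup.mk'_apply, QuotientGroup.mk_mul_of_mem _ hc] at e1
      have e3 := (QuotientGroup.eq_one_iff a).1 (orderOf_eq_one_iff.1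
        (Nat.eq_one_of_dvd_coprimes (hp.out.coprime_iff_not_dvd.2 e) e2 e1))
      exact n1 (ha.symm.dvd.trans (Subgroup.orderOf_dvd_natCard _ e3)))) w
  obtain ⟨k, hk⟩ := IsPGroup.iff_orderOf.1 hW w
  have e1 := orderOf_dvd_of_pow_eq_one e
  rcases k with _ | k
  · exact w1 (orderOf_eq_one_iff.1 hk)
  · exact n1 ((hk ▸ dvd_pow_self p k.succ_ne_zero :).trans e1)

theorem OneCl.cfg (h : OneCl p G) (p2 : p ≠ 2) {Q S : Subgroup G} (hQ : IsPGroup p Q) (hz : z ∈ Q)
    (zc : z ∈ centralizer (Q : Set G)) (hS : IsSylowIn p S (normalizer (Q : Set G)))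
    (zS : z ∈ centralizer (S : Set G)) {a : G} (ha : a ∈ normalizer (Q : Set G))
    (pa : ∃ k, orderOf a = p ^ k) : Commute a z := by
  set H := normalizer (Q : Set G)
  set W := closure {y | ∃ g ∈ H, g * z * g⁻¹ = y}
  have l : W ≤ Q ⊓ centralizer (Q : Set G) := (closure_le _).2 (by
    rintro _ ⟨g, hg, rfl⟩
    refine ⟨(mem_normalizer_iff.1 hg z).1 hz, fun w hw => ?_⟩
    have := zc _ ((mem_normalizer_iff''.1 hg w).1 hw)
    calc _ = g * (g⁻¹ * w * g * z) * g⁻¹ := by group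
      _ = _ := by rw [this]; group)
  have hW := hQ.to_le (l.trans inf_le_left)
  have ab : IsMulCommutative W := ⟨⟨fun v w => Subtype.ext ((l w.2).2 v (l v.2).1)⟩⟩
  have hH : H ≤ normalizer (W : Set G) := fun g hg => mem_normalizer_of_conj_smul_le (by
    rw [conj_smul_eq_map, MonoidHom.map_closure, closure_le]
    rintro _ ⟨_, ⟨k, hk, rfl⟩, rfl⟩
    exact subset_closure ⟨g * k, mul_mem hg hk, by simp [mul_assoc]⟩)
  have zW : z ∈ W := subset_closure ⟨1, one_mem _, by simp⟩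
  set φ := W.normalizerMonoidHom.comp (inclusion hH) with hφ
  have ev : ∀ (g : H) (w : W), (φ g w : G) = g * w * (g : G)⁻¹ := fun _ _ => rfl
  have h1 := h.act p2 hW ab hH ((eq_bot_iff_forall _).2 fun g hg => by
    have e1 : ∀ g ∈ pCore p φ.range, (g.1 ⟨z, zW⟩ : G) = z := fun g hg => by
      obtain ⟨s, hs, rfl⟩ := Solv.pCore_le_sylow (hS.toSylow.mapSurjective φ.rangeRestrict_surjective) hg
      exact mul_inv_eq_iff_eq_mul.2 (zS _ hs)
    obtain ⟨_, g, rfl⟩ := g
    refine Subtype.ext (DFunLike.ext _ _ fun w => Subtype.ext (mul_inv_eq_iff_eq_mul.2 ?_))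
    refine (show W ≤ centralizer {(g : G)} from (closure_le _).2 ?_) w.2 _ rfl
    rintro _ ⟨k, hk, rfl⟩ _ rfl
    have e2 := e1 _ ((inferInstance : (pCore p φ.range).Normal).conj_mem' _ hg (φ.rangeRestrict ⟨k, hk⟩))
    have e3 : k⁻¹ * g * k * z * (k⁻¹ * g * k)⁻¹ = z := by
      refine Eq.trans ?_ e2
      rw [show (⟨φ g, g, rfl⟩ : φ.range) = φ.rangeRestrict g from rfl, ← map_inv, ← map_mul, ← map_mul]
      rfl
    conv_rhs => rw [← e3]
    group)
  obtain ⟨k, hk⟩ := pa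
  have h2 := orderOf_map_dvd φ.rangeRestrict ⟨a, ha⟩
  rw [show orderOf (⟨a, ha⟩ : H) = p ^ k by rw [Subgroup.orderOf_mk, hk]] at h2
  have h3 := orderOf_eq_one_iff.1 (Nat.eq_one_of_dvd_coprimes
    ((hp.out.coprime_iff_not_dvd.2 h1).pow_left k) h2 (orderOf_dvd_natCard _))
  have h4 := ev ⟨a, ha⟩ ⟨z, zW⟩
  rw [show φ ⟨a, ha⟩ = 1 from congrArg Subtype.val h3] at h4
  exact mul_inv_eq_iff_eq_mul.1 h4.symm

theorem OneCl.cent (h : OneCl p G) (p2 : p ≠ 2) (P R : Sylow p G) (hz : z ∈ (P : Subgroup G))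
    (zc : z ∈ centralizer ((P : Subgroup G) : Set G)) (hR : z ∈ (R : Subgroup G)) :
    z ∈ centralizer ((R : Subgroup G) : Set G) := by
  by_contra nc
  obtain ⟨⟨P, R⟩, ⟨hz, zc, hR, nc⟩, hm⟩ := Set.exists_max_image
    {u : Sylow p G × Sylow p G | z ∈ (u.1 : Subgroup G) ∧ z ∈ centralizer ((u.1 : Subgroup G) : Set G) ∧
      z ∈ (u.2 : Subgroup G) ∧ z ∉ centralizer ((u.2 : Subgroup G) : Set G)}
    (fun u => Nat.card ((u.1 : Subgroup G) ⊓ u.2 : Subgroup G)) (Set.toFinite _) ⟨(P, R), hz, zc, hR, nc⟩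
  dsimp only at hz zc hR nc hm
  set Q := (P : Subgroup G) ⊓ R with hQ
  have n1 : ¬ (R : Subgroup G) ≤ P := fun e => nc (centralizer_le e zc)
  have h1 := lt_inf_normalizer_of_isPGroup R.isPGroup' (inf_lt_right.2 n1 : Q < R)
  have h2 := lt_inf_normalizer_of_isPGroup P.isPGroup'
    (inf_lt_left.2 fun e => n1 (P.is_maximal' R.isPGroup' e).le : Q < P)
  obtain ⟨S, h3, h4⟩ := exists_isSylowIn_ge (P.isPGroup'.to_le inf_le_left)
    (inf_le_right : (P : Subgroup G) ⊓ normalizer (Q : Set G) ≤ _)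
  obtain ⟨P1, h5⟩ := h3.isPGroup.exists_le_sylow
  have h6 : z ∈ centralizer ((P1 : Subgroup G) : Set G) := by
    by_contra e
    exact (hm (P, P1) ⟨hz, zc, h5 (h4 (h2.le ⟨hz, hR⟩)), e⟩).not_gt
      (card_lt_of_lt (h2.trans_le (le_inf inf_le_left (h4.trans h5))))
  have h7 : (R : Subgroup G) ⊓ normalizer (Q : Set G) ≤ centralizer {z} := fun a ha =>
    mem_centralizer_singleton_iff.2 (h.cfg p2 (P.isPGroup'.to_le inf_le_left) ⟨hz, hR⟩
      (centralizer_le inf_le_left zc) h3 (centralizer_le h5 h6) ha.2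
      (orderOf_eq_pow_of_mem R.isPGroup' ha.1))
  obtain ⟨g, hg, h8⟩ := (isSylowIn_of_sylow_le P (H := centralizer {z}) fun w hw =>
    mem_centralizer_singleton_iff.2 (zc w hw)).exists_conj_le (R.isPGroup'.to_le inf_le_left) h7
  have e : g * z * g⁻¹ = z := mul_inv_eq_iff_eq_mul.2 (mem_centralizer_singleton_iff.1 hg)
  have m : ∀ w, w ∈ ((g⁻¹ • P : Sylow p G) : Subgroup G) ↔ g * w * g⁻¹ ∈ (P : Subgroup G) := fun w => by
    rw [Sylow.coe_subgroup_smul, mem_conj_smul, inv_inv]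
  refine (hm (g⁻¹ • P, R) ⟨(m z).2 (e.symm ▸ hz), fun w hw => ?_, hR, nc⟩).not_gt
    (card_lt_of_lt (h1.trans_le (le_inf (fun w hw => (m w).2 (conj_smul_le_iff.1 h8 w hw)) inf_le_left)))
  have := zc _ ((m w).1 hw)
  rw [← e, _root_.conj_mul, _root_.conj_mul] at this
  simpa using this

theorem OneCl.comm (h : OneCl p G) (P : Sylow p G) : IsMulCommutative (P : Subgroup G) := by
  by_cases p2 : p = 2
  · subst p2
    have e : ∀ a : (P : Subgroup G), a⁻¹ = a := fun a =>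
      inv_eq_of_mul_eq_one_right (Subtype.ext ((sq _).symm.trans (h.expo P.isPGroup' a.2)))
    exact ⟨⟨fun a b => by rw [← e (a * b), mul_inv_rev, e, e]⟩⟩
  refine ⟨⟨fun a b => ?_⟩⟩
  by_cases a1 : a = 1
  · simp [a1]
  have : Nontrivial (P : Subgroup G) := ⟨a, 1, a1⟩
  have := P.isPGroup'.center_nontrivial
  obtain ⟨z, hz⟩ := exists_ne (1 : center (P : Subgroup G))
  obtain ⟨g, hg⟩ := isConj_iff.1 (h.cj z a (by simpa using hz) (by simpa using a1)
    (orderOf_eq_pow_of_mem P.isPGroup' z.1.2) (orderOf_eq_pow_of_mem P.isPGroup' a.2))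
  have m : ∀ w, w ∈ ((g⁻¹ • P : Sylow p G) : Subgroup G) ↔ g * w * g⁻¹ ∈ (P : Subgroup G) := fun w => by
    rw [Sylow.coe_subgroup_smul, mem_conj_smul, inv_inv]
  have := h.cent p2 P (g⁻¹ • P) z.1.2 (fun w hw => congrArg Subtype.val (mem_center_iff.1 z.2 ⟨w, hw⟩))
    ((m _).2 (hg ▸ a.2)) (g⁻¹ * b * g) ((m _).2 (by simp [mul_assoc]))
  refine Subtype.ext ?_
  rw [Subgroup.coe_mul, Subgroup.coe_mul, ← hg]
  calc _ = g * (z * (g⁻¹ * b * g)) * g⁻¹ := by group
    _ = _ := by rw [← this]; group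

theorem comm_of_pSolv (n : ℕ) : ∀ (G : Type u) [Group G] [Finite G], Nat.card G = n → IsPSolvable p G →
    ∀ D : Subgroup G, IsPGroup p D → (∀ x ∈ D, ∀ y ∈ D, x ≠ 1 → y ≠ 1 → IsConj x y) →
      IsMulCommutative D := by
  induction n using Nat.strong_induction_on with
  | _ n ih =>
  intro G _ _ hn hG D hD h
  rcases subsingleton_or_nontrivial G with _ | _
  · exact ⟨⟨fun a b => Subsingleton.elim _ _⟩⟩
  obtain ⟨N, _, N1, hN⟩ : ∃ N : Subgroup G, ∃ _ : N.Normal, N ≠ ⊥ ∧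
      (¬ p ∣ Nat.card N ∨ ∀ a ∈ N, ∀ b ∈ N, a * b = b * a) := by
    rcases PLocal.core_ne_bot_of_pSolv hG with e | e
    · have := (nontrivial_iff_ne_bot _).2 e
      have := (Solv.isPGroup_pCore (p := p) (G := G)).center_nontrivial
      refine ⟨(center (pCore p G)).map (pCore p G).subtype, inferInstance, fun e => ?_, .inr ?_⟩
      · exact (nontrivial_iff_ne_bot _).1 this ((Subgroup.map_eq_bot_iff_of_injective _ (subtype_injective _)).1 e)
      · rintro _ ⟨a, ha, rfl⟩ _ ⟨b, -, rfl⟩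
        exact congrArg Subtype.val (mem_center_iff.1 ha b).symm
    · exact ⟨_, inferInstance, e, .inl (Solv.not_dvd_card_pPrimeCore p G)⟩
  by_cases c : ∀ x ∈ D, x ∈ N → x = 1
  · have := ih _ (hn ▸ (show N.index < Nat.card G from by
      rw [← N.card_mul_index]
      exact lt_mul_of_one_lt_left (Nat.pos_of_ne_zero index_ne_zero_of_finite) (one_lt_card_iff_ne_bot _ |>.2 N1)))
      (G ⧸ N) rfl (PLocal.pSolv_quotient hG N) (D.map (QuotientGroup.mk' N)) (hD.map _) (by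
        rintro _ ⟨x, hx, rfl⟩ _ ⟨y, hy, rfl⟩ x1 y1
        exact (QuotientGroup.mk' N).map_isConj (h x hx y hy (by rintro rfl; simp at x1) (by rintro rfl; simp at y1)))
    refine ⟨⟨fun a b => Subtype.ext (mul_inv_eq_one.1 (c _ (mul_mem (a * b).2 (inv_mem (b * a).2)) ?_))⟩⟩
    have e := congrArg Subtype.val (this.is_comm.comm ⟨_, mem_map_of_mem _ a.2⟩ ⟨_, mem_map_of_mem _ b.2⟩)
    rw [← QuotientGroup.eq_one_iff, QuotientGroup.mk_mul, QuotientGroup.mk_inv, mul_inv_eq_one]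
    exact e
  push Not at c
  obtain ⟨x, hx, xN, x1⟩ := c
  have l : D ≤ N := fun y hy => by
    by_cases y1 : y = 1
    · exact y1 ▸ one_mem _
    obtain ⟨g, rfl⟩ := isConj_iff.1 (h x hx y hy x1 y1)
    exact Normal.conj_mem inferInstance x xN g
  rcases hN with e | e
  · obtain ⟨k, hk⟩ := orderOf_eq_pow_of_mem hD hx
    exact absurd ((hk ▸ dvd_pow_self p fun e => x1 (orderOf_eq_one_iff.1 (by rw [hk, e, pow_zero])) :).trans
      (Subgroup.orderOf_dvd_natCard _ xN)) e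
  · exact ⟨⟨fun a b => Subtype.ext (e _ (l a.2) _ (l b.2))⟩⟩

theorem compl_of_rank {M : Ideal AlgInt} [PMod p M] (h : blockRank p (principalBlock M G) = 1) :
    HasNormalPComplement p G := by
  have e : ∀ g : G, (orderOf g).Coprime p → g ∈ pPrimeCore p G := fun g hg => by
    rw [← kerOf_principalBlock (M := M), mem_kerOf]
    intro χ hχ
    have := congrFun (BMod.rho_eq_smul_of_rank_one h hχ Small.irrOne_mem_principal) g
    simpa [BMod.rho_apply_of_not_dvd _ (hp.out.coprime_iff_not_dvd.1 hg.symm)] using this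
  exact hasNormalPComplement_iff_mul_coprime.2 fun x y hx hy =>
    (Solv.coprime_card_pPrimeCore p G).coprime_dvd_left
      (Subgroup.orderOf_dvd_natCard _ (mul_mem (e x hx) (e y hy)))

end Cfsg.Agent.Hz3
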