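import Cfsg.Agent.Perm.Zass
import Cfsg.Agent.Perm.Regular

/-! Two-transitive groups with an involution whose centraliser has constant fixity: every element interchanging
two points is conjugate to the involution. -/

set_option autoImplicit false

namespace Cfsg.Agent.HzT
open MulAction Subgroup Cfsg.Agent.Perm

variable {G Ω : Type*} [Group G] [MulAction G Ω]

/-- fixed points -/
def Fx (Ω : Type*) [MulAction G Ω] (g : G) : Set Ω := {x | g • x = x}

theorem mem_Fx {g : G} {x : Ω} : x ∈ Fx Ω g ↔ g • x = x := Iff.rfl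

theorem Fx_conj (y g : G) : Fx Ω (y * g * y⁻¹) = (y • ·) '' Fx Ω g := by
  ext x
  simp only [mem_Fx, Set.mem_image]
  constructor
  · intro h
    refine ⟨y⁻¹ • x, ?_, smul_inv_smul y x⟩
    rw [eq_inv_smul_iff, ← mul_smul, ← mul_smul, h]
  · rintro ⟨z, hz, rfl⟩
    rw [mul_smul, mul_smul, inv_smul_smul, hz]

theorem ncard_conj (y g : G) : (Fx Ω (y * g * y⁻¹)).ncard = (Fx Ω g).ncard := by
  rw [Fx_conj, Set.ncard_image_of_injective _ (MulAction.injective y)]

structure Hyp (Ω : Type*) [MulAction G Ω] (t : G) (i : ℕ) : Prop where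
  two : IsMultiplyPretransitive G Ω 2
  ord : orderOf t = 2
  fix : ∀ g : G, Commute g t → g ≠ 1 → (Fx Ω g).ncard = i

variable [Finite G] [Fintype Ω] [FaithfulSMul G Ω] {t : G} {i : ℕ}

omit [Finite G] [Fintype Ω] [FaithfulSMul G Ω] in
theorem Hyp.ne (h : Hyp Ω t i) : t ≠ 1 := by
  rintro rfl; have := h.ord; simp at this

omit [Finite G] [Fintype Ω] [FaithfulSMul G Ω] in
theorem Hyp.sq (h : Hyp Ω t i) : t * t = 1 := by rw [← pow_two, ← h.ord, pow_orderOf_eq_one]

omit [Finite G] [Fintype Ω] [FaithfulSMul G Ω] in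
theorem Hyp.ft (h : Hyp Ω t i) : (Fx Ω t).ncard = i := h.fix t (Commute.refl t) h.ne

theorem Hyp.card_le (h : Hyp Ω t i) :
    Nat.card (centralizer ({t} : Set G)) ≤ (Fx Ω t)ᶜ.ncard := by
  classical
  set C := centralizer ({t} : Set G)
  have := Fintype.ofFinite C
  have hb := sum_card_fixedBy_eq_card_orbits_mul_card_group C Ω
  have hc := Set.ncard_add_ncard_compl (Fx Ω t)
  rw [h.ft] at hc
  have e : ∀ c : C, Fintype.card (fixedBy Ω c) = i + if c = 1 then (Fx Ω t)ᶜ.ncard else 0 := by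
    intro c
    rw [← Nat.card_eq_fintype_card, Nat.card_coe_set_eq]
    split_ifs with h1
    · subst h1
      rw [hc, fixedBy_one_eq_univ, Set.ncard_univ]
    · exact h.fix c (mem_centralizer_singleton_iff.1 c.2) fun h2 => h1 (Subtype.ext h2)
  simp only [e, Finset.sum_add_distrib, Finset.sum_const, Finset.sum_ite_eq', Finset.mem_univ, if_true,
    Finset.card_univ, smul_eq_mul] at hb
  rw [Nat.card_eq_fintype_card]
  refine Nat.le_of_dvd ?_ ((Nat.dvd_add_right (Dvd.intro i rfl)).1 (hb ▸ Dvd.intro_left _ rfl))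
  obtain ⟨a, ha⟩ := exists_smul_ne (α := Ω) h.ne
  exact (Set.ncard_pos (Set.toFinite _)).2 ⟨a, ha⟩

theorem Hyp.count (h : Hyp Ω t i) {a b : Ω} (hab : a ≠ b) :
    (∀ w : G, w • a = b → w • b = a → IsConj t w) ∧
      Nat.card (centralizer ({t} : Set G)) = (Fx Ω t)ᶜ.ncard := by
  classical
  have := Fintype.ofFinite G
  set C := centralizer ({t} : Set G)
  set k := Nat.card (stabilizer G a ⊓ stabilizer G b : Subgroup G) with hkd
  have hk : 0 < k := Nat.card_pos
  set X : Finset G := Finset.univ.filter fun g => (g * t * g⁻¹) • a = b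
  set W : Finset G := Finset.univ.filter fun w => w • a = b ∧ w • b = a
  set W' : Finset G := W.filter fun w => IsConj t w
  have hW : W.card = k := by
    rw [hkd, ← card_smul_two h.two hab hab hab.symm, Nat.card_eq_fintype_card, Fintype.card_subtype]
  have h1 : k * (Fx Ω t)ᶜ.toFinset.card ≤ X.card := by
    refine Finset.mul_card_image_le_card_of_maps_to (f := fun g => g⁻¹ • a) (fun g hg => ?_) k fun c hc => ?_
    · simp only [X, Finset.mem_filter, Finset.mem_univ, true_and] at hg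
      simp only [Set.mem_toFinset, Set.mem_compl_iff, mem_Fx]
      intro h0
      rw [mul_smul, mul_smul, h0, smul_inv_smul] at hg
      exact hab hg
    · simp only [Set.mem_toFinset, Set.mem_compl_iff, mem_Fx] at hc
      rw [hkd, ← card_smul_two h.two hab (Ne.symm hc) hab, Nat.card_eq_fintype_card, Fintype.card_subtype]
      refine Finset.card_le_card fun g hg => ?_
      simp only [X, Finset.mem_filter, Finset.mem_univ, true_and] at hg ⊢
      have : g⁻¹ • a = c := by rw [inv_smul_eq_iff, hg.1]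
      exact ⟨by rw [mul_smul, mul_smul, this, hg.2], this⟩
  have h2 : X.card ≤ Nat.card C * W'.card := by
    refine Finset.card_le_mul_card_image_of_maps_to (f := fun g => g * t * g⁻¹) (fun g hg => ?_) _ fun w hw => ?_
    · simp only [X, W', W, Finset.mem_filter, Finset.mem_univ, true_and] at hg ⊢
      refine ⟨⟨hg, ?_⟩, isConj_iff.2 ⟨g, rfl⟩⟩
      rw [← hg, ← mul_smul, show g * t * g⁻¹ * (g * t * g⁻¹) = g * (t * t) * g⁻¹ by group, h.sq]
      simp
    · simp only [W', Finset.mem_filter] at hw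
      obtain ⟨y, rfl⟩ := isConj_iff.1 hw.2
      rw [Nat.card_eq_fintype_card, ← Finset.card_univ]
      refine Finset.card_le_card_of_injOn (fun g => if hg : y⁻¹ * g ∈ C then ⟨y⁻¹ * g, hg⟩ else 1)
        (fun _ _ => Finset.mem_coe.2 (Finset.mem_univ _)) fun g hg g' hg' e => ?_
      have key : ∀ g : G, g * t * g⁻¹ = y * t * y⁻¹ → y⁻¹ * g ∈ C := fun g hg => by
        rw [mem_centralizer_singleton_iff]
        calc y⁻¹ * g * t = y⁻¹ * (g * t * g⁻¹) * g := by group
          _ = _ := by rw [hg]; group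
      simp only [Finset.coe_filter, Set.mem_ofPred_eq] at hg hg'
      simp only [dif_pos (key g hg.2), dif_pos (key g' hg'.2), Subtype.mk.injEq, mul_right_inj] at e
      exact e
  have h3 := h.card_le
  rw [← Set.ncard_eq_toFinset_card'] at h1
  have h4 : W'.card ≤ k := hW ▸ Finset.card_filter_le _ _
  have h5 : 0 < Nat.card C := Nat.card_pos
  have h6 : k ≤ W'.card := by nlinarith
  refine ⟨fun w ha hb => ?_, le_antisymm h3 (by nlinarith)⟩
  have : W' = W := Finset.eq_of_subset_of_card_le (Finset.filter_subset _ _) (hW ▸ h6)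
  have hw : w ∈ W' := by rw [this]; simp [W, ha, hb]
  exact (Finset.mem_filter.1 hw).2

theorem Hyp.swap_sq (h : Hyp Ω t i) {a b : Ω} (hab : a ≠ b) {w : G} (ha : w • a = b) (hb : w • b = a) :
    w * w = 1 := by
  obtain ⟨y, rfl⟩ := isConj_iff.1 ((h.count hab).1 w ha hb)
  rw [show y * t * y⁻¹ * (y * t * y⁻¹) = y * (t * t) * y⁻¹ by group, h.sq]; simp

theorem Hyp.inv (h : Hyp Ω t i) {a b : Ω} (hab : a ≠ b) {w x : G} (ha : w • a = b) (hb : w • b = a)
    (xa : x • a = a) (xb : x • b = b) : w * x * w⁻¹ = x⁻¹ := by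
  have h1 := h.swap_sq hab ha hb
  have h2 := h.swap_sq hab (w := w * x) (by rw [mul_smul, xa, ha]) (by rw [mul_smul, xb, hb])
  rw [← eq_inv_iff_mul_eq_one] at h1
  rw [← h1, eq_inv_iff_mul_eq_one, ← h2]; group

theorem Hyp.comm (h : Hyp Ω t i) {a b : Ω} (hab : a ≠ b) {x y : G}
    (xa : x • a = a) (xb : x • b = b) (ya : y • a = a) (yb : y • b = b) : x * y = y * x := by
  obtain ⟨w, ha, hb⟩ := exists_smul_two h.two hab hab.symm
  have h1 := h.inv hab ha hb xa xb
  have h2 := h.inv hab ha hb ya yb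
  have h3 := h.inv hab ha hb (x := x * y) (by rw [mul_smul, ya, xa]) (by rw [mul_smul, yb, xb])
  rw [show w * (x * y) * w⁻¹ = w * x * w⁻¹ * (w * y * w⁻¹) by group, h1, h2, ← mul_inv_rev, inv_inj] at h3
  exact h3.symm

theorem Hyp.conj (h : Hyp Ω t i) {s : G} (h1 : s ≠ 1) (h2 : s * s = 1) : IsConj t s := by
  obtain ⟨a, ha⟩ := exists_smul_ne (α := Ω) h1
  exact (h.count (Ne.symm ha)).1 s rfl (by rw [← mul_smul, h2, one_smul])

theorem Hyp.fix' (h : Hyp Ω t i) {s g : G} (h1 : s ≠ 1) (h2 : s * s = 1) (hg : g * s = s * g) (g1 : g ≠ 1) :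
    (Fx Ω g).ncard = i := by
  obtain ⟨y, rfl⟩ := isConj_iff.1 (h.conj h1 h2)
  rw [← ncard_conj y⁻¹ g]
  refine h.fix _ ?_ fun e => g1 (by simpa using conj_eq_one_iff.1 e)
  change _ * _ = _ * _
  calc y⁻¹ * g * y⁻¹⁻¹ * t = y⁻¹ * (g * (y * t * y⁻¹)) * y := by group
    _ = _ := by rw [hg]; group

theorem Hyp.fix_of_comm (h : Hyp Ω t i) {x c : G} (hx : x * x ≠ 1) (hc : c * c = 1) (e : c * x = x * c) {a : Ω}
    (ha : x • a = a) : c • a = a := by
  by_contra hn
  have := h.inv (Ne.symm hn) (w := c) (x := x) rfl (by rw [← mul_smul, hc, one_smul]) ha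
    (by rw [← mul_smul, ← e, mul_smul, ha])
  rw [e, mul_inv_cancel_right, eq_inv_iff_mul_eq_one] at this
  exact hx this

omit [Finite G] [Fintype Ω] [FaithfulSMul G Ω] in
theorem relIndex_stab (M : Subgroup G) (a : Ω) : (stabilizer G a).relIndex M = (orbit M a).ncard := by
  rw [← index_stabilizer]; rfl

theorem Hyp.le_two (h : Hyp Ω t i) : i ≤ 2 := by
  by_contra! hi
  have h3 : ∀ a b : Ω, ∃ c, t • c = c ∧ c ≠ a ∧ c ≠ b := fun a b => by
    by_contra! hn
    have : Fx Ω t ⊆ {a, b} := fun c hc => by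
      by_cases h1 : c = a
      · exact Or.inl h1
      · exact Or.inr (hn c hc h1)
    have h1 := Set.ncard_le_ncard this (Set.toFinite _)
    have h2 := Set.ncard_insert_le a ({b} : Set Ω)
    rw [h.ft] at h1
    rw [Set.ncard_singleton] at h2
    omega
  have ti : t⁻¹ = t := (eq_inv_iff_mul_eq_one.2 h.sq).symm
  have sw : ∀ {a b : Ω}, a ≠ b → t • a = a → t • b = b → ∃ w : G, w • a = b ∧ w • b = a ∧ w * t = t * w :=
    fun hab ha hb => by
      obtain ⟨w, h1, h2⟩ := exists_smul_two h.two hab hab.symm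
      exact ⟨w, h1, h2, by rw [← mul_inv_eq_iff_eq_mul, h.inv hab h1 h2 ha hb, ti]⟩
  obtain ⟨a0, -⟩ := exists_smul_ne (α := Ω) h.ne
  obtain ⟨a, ha, -⟩ := h3 a0 a0
  obtain ⟨b, hb, hba, -⟩ := h3 a a
  obtain ⟨c, hc, hca, hcb⟩ := h3 a b
  have ex : ∀ x : G, x * t = t * x → x * x = 1 := fun x hx => by
    by_contra hn
    have key : ∀ x : G, x * t = t * x → x * x ≠ 1 → Fx Ω x = Fx Ω t := fun x hx hn =>
      Set.eq_of_subset_of_ncard_le (fun z hz => h.fix_of_comm hn h.sq hx.symm hz)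
        (by rw [h.ft, h.fix x hx (by rintro rfl; simp at hn)]) (Set.toFinite _)
    have e := key x hx hn
    have xa : x • a = a := by rw [← mem_Fx, e]; exact ha
    have xb : x • b = b := by rw [← mem_Fx, e]; exact hb
    have xc : x • c = c := by rw [← mem_Fx, e]; exact hc
    obtain ⟨u, u1, u2, u3⟩ := sw hba.symm ha hb
    obtain ⟨v, v1, v2, v3⟩ := sw hcb.symm hb hc
    have hm : (u * v) • c ≠ c := by rw [mul_smul, v2, u2]; exact hca.symm
    have i1 := h.inv hba.symm u1 u2 xa xb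
    have i2 := h.inv hcb.symm v1 v2 xb xc
    refine hm (h.fix_of_comm hn ?_ ?_ xc)
    · by_contra h0
      have := key (u * v) (by rw [mul_assoc, v3, ← mul_assoc, u3, mul_assoc]) h0
      exact hm (by rw [← mem_Fx, this]; exact hc)
    · calc u * v * x = u * (v * x * v⁻¹) * v := by group
        _ = (u * x * u⁻¹)⁻¹ * (u * v) := by rw [i2]; group
        _ = _ := by rw [i1, inv_inv]
  set C := centralizer ({t} : Set G)
  have two : ∀ p : ℕ, p.Prime → p ∣ Nat.card C → p = 2 := fun p hp hd => by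
    have := Fact.mk hp
    obtain ⟨x, hx⟩ := exists_prime_orderOf_dvd_card' p hd
    have : x ^ 2 = 1 := Subtype.ext (by simpa [pow_two] using ex x (mem_centralizer_singleton_iff.1 x.2))
    exact (Nat.prime_dvd_prime_iff_eq hp Nat.prime_two).1 (hx ▸ orderOf_dvd_of_pow_eq_one this)
  have cm : ∀ x y : G, x * t = t * x → y * t = t * y → x * y = y * x := fun x y hx hy => by
    have h1 := ex (x * y) (by rw [mul_assoc, hy, ← mul_assoc, hx, mul_assoc])
    have h2 := eq_inv_iff_mul_eq_one.2 (ex x hx)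
    have h3 := eq_inv_iff_mul_eq_one.2 (ex y hy)
    rw [← eq_inv_iff_mul_eq_one, mul_inv_rev, ← h2, ← h3] at h1
    exact h1
  have pw : ∀ {d : Ω}, d ≠ a → t • d = d → ∀ x : G, x • a = a → x • d = d → ∀ z, t • z = z → x • z = z :=
    fun hd td x xa xd z hz => by
      by_cases hza : z = a
      · rw [hza, xa]
      obtain ⟨w, w1, -, w3⟩ := sw (Ne.symm hza) ha hz
      rw [← w1, ← mul_smul, cm x w (h.comm hd.symm xa xd ha td) w3, mul_smul, xa]
  have o1 : orbit C a = Fx Ω t := by
    ext z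
    constructor
    · rintro ⟨y, rfl⟩
      change t • (y : G) • a = (y : G) • a
      rw [← mul_smul, ← mem_centralizer_singleton_iff.1 y.2, mul_smul, ha]
    · intro hz
      by_cases hza : z = a
      · rw [hza]; exact mem_orbit_self a
      obtain ⟨w, w1, -, w3⟩ := sw (Ne.symm hza) ha hz
      exact ⟨⟨w, mem_centralizer_singleton_iff.2 w3⟩, w1⟩
  have d1 : i ∣ Nat.card C := by
    rw [← h.ft, ← o1, ← relIndex_stab]; exact relIndex_dvd_card _ _
  let M : Subgroup G := stabilizer G a ⊓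
    { carrier := {y | (y • ·) '' Fx Ω t = Fx Ω t}
      one_mem' := by simp
      mul_mem' := fun {x y} hx hy => by
        simp only [Set.mem_ofPred_eq] at hx hy ⊢
        conv_rhs => rw [← hx, ← hy, Set.image_image]
        simp only [mul_smul]
      inv_mem' := fun {x} hx => by
        simp only [Set.mem_ofPred_eq] at hx ⊢
        conv_lhs => rw [← hx, Set.image_image]
        simp }
  have o2 : orbit M b = Fx Ω t \ {a} := by
    ext z
    constructor
    · rintro ⟨y, rfl⟩
      refine ⟨y.2.2 ▸ ⟨b, hb, rfl⟩, fun e => hba ?_⟩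
      exact smul_left_cancel (y : G) (e.trans y.2.1.symm)
    · rintro ⟨hz, hza⟩
      obtain ⟨y, y1, y2⟩ := exists_smul_two h.two hba.symm (Ne.symm hza)
      refine ⟨⟨y, y1, ?_⟩, y2⟩
      change _ '' _ = _
      rw [← Fx_conj]
      refine (Set.eq_of_subset_of_ncard_le (fun v hv => pw hza hz _ ?_ ?_ v hv) (ncard_conj y t).le
        (Set.toFinite _)).symm
      · rw [← mem_Fx, Fx_conj]; exact ⟨a, ha, y1⟩
      · rw [← mem_Fx, Fx_conj]; exact ⟨b, hb, y2⟩
  have o3 : orbit (stabilizer G a) b = {a}ᶜ := by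
    ext z
    constructor
    · rintro ⟨y, rfl⟩ e
      exact hba (smul_left_cancel (y : G) (e.trans y.2.symm))
    · intro hza
      obtain ⟨y, y1, y2⟩ := exists_smul_two h.two hba.symm (Ne.symm hza)
      exact ⟨⟨y, y1⟩, y2⟩
  have hle : stabilizer G b ⊓ stabilizer G a ≤ M := fun x hx => ⟨hx.2, by
    change _ '' _ = _
    exact (Set.image_congr (s := Fx Ω t) (g := id) fun z hz => pw hba hb x hx.2 hx.1 z hz).trans (Set.image_id _)⟩
  have d2 : i - 1 ∣ Nat.card C := by
    have e := relIndex_mul_relIndex _ M (stabilizer G a) hle inf_le_left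
    rw [inf_relIndex_right, ← inf_relIndex_right _ M, inf_assoc, inf_eq_right.2 (inf_le_left : M ≤ _),
      inf_relIndex_right, relIndex_stab, relIndex_stab, o2, o3, Set.ncard_sdiff_singleton_of_mem (mem_Fx.2 ha), h.ft] at e
    have c1 := Set.ncard_add_ncard_compl (Fx Ω t)
    have c2 := Set.ncard_add_ncard_compl ({a} : Set Ω)
    rw [h.ft, ← (h.count hba).2] at c1
    rw [Set.ncard_singleton] at c2
    change i + Nat.card C = _ at c1
    exact (Nat.dvd_add_right (dvd_refl (i - 1))).1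
      ((show ({a} : Set Ω)ᶜ.ncard = i - 1 + Nat.card C by omega) ▸ Dvd.intro _ e)
  obtain ⟨p, hp, hd⟩ := Nat.exists_prime_and_dvd (show i ≠ 1 by omega)
  obtain ⟨q, hq, hd'⟩ := Nat.exists_prime_and_dvd (show i - 1 ≠ 1 by omega)
  rw [two p hp (hd.trans d1)] at hd
  rw [two q hq (hd'.trans d2)] at hd'
  omega

/-- if a non-identity element fixes three points, the group has 2-rank one and involutions fix points -/
theorem Hyp.rank_one (h : Hyp Ω t i) {g : G} (g1 : g ≠ 1) {a b c : Ω} (hab : a ≠ b) (hbc : b ≠ c) (hac : a ≠ c)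
    (ga : g • a = a) (gb : g • b = b) (gc : g • c = c) :
    (∀ E : Subgroup G, ¬ IsKleinFour E) ∧ ∀ s : G, s * s = 1 → ∃ z : Ω, s • z = z := by
  have no : ∀ s : G, s * s = 1 → g * s = s * g → s = 1 := fun s h2 e => by
    by_contra h1
    have e1 := h.fix' h1 h2 e g1
    have e2 : ({a, b, c} : Set Ω).ncard ≤ (Fx Ω g).ncard := Set.ncard_le_ncard (by
      rintro z (rfl | rfl | rfl) <;> assumption) (Set.toFinite _)
    rw [Set.ncard_eq_three.2 ⟨a, b, c, hab, hac, hbc, rfl⟩, e1] at e2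
    have := h.le_two
    omega
  have g2 : g * g ≠ 1 := fun e => g1 (no g e rfl)
  have od : ∀ x : G, g * x = x * g → Odd (orderOf x) := fun x e => by
    by_contra hn
    obtain ⟨m, hm⟩ := Nat.not_odd_iff_even.1 hn
    have h0 := orderOf_pos x
    have := no (x ^ m) (by rw [← pow_add, ← hm, pow_orderOf_eq_one]) (Commute.pow_right e m)
    have := Nat.le_of_dvd (by omega) (orderOf_dvd_of_pow_eq_one this)
    omega
  obtain ⟨u, u1, u2⟩ := exists_smul_two h.two hab hab.symm
  obtain ⟨v, v1, v2⟩ := exists_smul_two h.two hbc hbc.symm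
  obtain ⟨s, s1, s2⟩ := exists_smul_two h.two hac hac.symm
  have i1 := h.inv hab u1 u2 ga gb
  have i2 := h.inv hbc v1 v2 gb gc
  have i3 := h.inv hac s1 s2 ga gc
  have wa : (s * v * u) • a = a := by rw [mul_smul, mul_smul, u1, v1, s2]
  have wi : (s * v * u) * g * (s * v * u)⁻¹ = g⁻¹ := by
    calc _ = s * (v * (u * g * u⁻¹) * v⁻¹) * s⁻¹ := by group
      _ = s * (v * g * v⁻¹)⁻¹ * s⁻¹ := by rw [i1]; group
      _ = _ := by rw [i2, inv_inv, i3]
  generalize s * v * u = w at wa wi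
  have w2 : g * (w * w) = w * w * g := by
    calc _ = (w * g * w⁻¹)⁻¹ * (w * w) := by rw [wi, inv_inv]
      _ = w * g⁻¹ * w := by group
      _ = _ := by rw [← wi]; group
  obtain ⟨m, hm⟩ := od _ w2
  have r2 : w ^ (2 * m + 1) * w ^ (2 * m + 1) = 1 := by
    rw [← Commute.mul_pow (Commute.refl w), ← hm, pow_orderOf_eq_one]
  have ri : w ^ (2 * m + 1) * g * (w ^ (2 * m + 1))⁻¹ = g⁻¹ := by
    have : g * (w * w) ^ m = (w * w) ^ m * g := Commute.pow_right w2 m
    rw [pow_succ', pow_mul, pow_two, mul_assoc w, ← this, ← wi]; group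
  have ra : w ^ (2 * m + 1) • a = a := (stabilizer G a).pow_mem wa _
  generalize w ^ (2 * m + 1) = r at r2 ri ra
  have r1 : r ≠ 1 := by
    rintro rfl
    exact g2 (by rw [← eq_inv_iff_mul_eq_one]; simpa using ri)
  have one : ∀ s : G, s ≠ 1 → s * s = 1 → ∀ x y : Ω, s • x = x → s • y = y → x = y := fun s h1 h2 x y hx hy => by
    by_contra hxy
    obtain ⟨k, k1, k2⟩ := exists_smul_two h.two hxy hab
    refine h1 (conj_eq_one_iff.1 (no (k * s * k⁻¹) ?_ (h.comm hab ga gb ?_ ?_)))
    · rw [show k * s * k⁻¹ * (k * s * k⁻¹) = k * (s * s) * k⁻¹ by group, h2]; simp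
    · rw [← k1, mul_smul, mul_smul, inv_smul_smul, hx]
    · rw [← k2, mul_smul, mul_smul, inv_smul_smul, hy]
  have fr : Fx Ω r = {a} := Set.eq_singleton_iff_unique_mem.2 ⟨ra, fun z hz => one r r1 r2 z a hz ra⟩
  have hi : i = 1 := by rw [← h.fix' r1 r2 rfl r1, fr, Set.ncard_singleton]
  have ex : ∀ s : G, s * s = 1 → ∃ z : Ω, s • z = z := fun s h2 => by
    by_cases h1 : s = 1
    · exact ⟨a, by rw [h1, one_smul]⟩
    exact (Set.ncard_pos (Set.toFinite _)).1 (by rw [h.fix' h1 h2 rfl h1]; omega : 0 < (Fx Ω s).ncard)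
  refine ⟨?_, ex⟩
  -- the centraliser of `r` is regular on the points other than `a`
  set C := centralizer ({r} : Set G)
  have Ca : ∀ y ∈ C, y • a = a := fun y hy => one r r1 r2 _ _ (by
    rw [← mul_smul, ← mem_centralizer_singleton_iff.1 hy, mul_smul, ra]) ra
  have tr : orbit C b = {a}ᶜ := by
    refine Set.eq_of_subset_of_ncard_le ?_ ?_ (Set.toFinite _)
    · rintro _ ⟨y, rfl⟩ e
      exact hab (smul_left_cancel (y : G) ((Ca y y.2).trans e.symm))
    · obtain ⟨y, hy⟩ := isConj_iff.1 (h.conj r1 r2)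
      have c1 := Set.ncard_add_ncard_compl (Fx Ω t)
      have c2 := Set.ncard_add_ncard_compl ({a} : Set Ω)
      rw [h.ft, ← (h.count hab).2] at c1
      rw [Set.ncard_singleton] at c2
      have c3 : Nat.card C = Nat.card (centralizer ({t} : Set G)) := by
        refine Nat.card_congr ((MulAut.conj y⁻¹).toEquiv.subtypeEquiv fun x => ?_)
        simp only [C, mem_centralizer_singleton_iff, ← hy]
        change _ ↔ y⁻¹ * x * y⁻¹⁻¹ * t = t * (y⁻¹ * x * y⁻¹⁻¹)
        constructor <;> intro e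
        · calc _ = y⁻¹ * (x * (y * t * y⁻¹)) * y := by group
            _ = _ := by rw [e]; group
        · calc _ = y * (y⁻¹ * x * y⁻¹⁻¹ * t) * y⁻¹ := by group
            _ = _ := by rw [e]; group
      have c4 : stabilizer C b = ⊥ := by
        rw [stabilizer_eq_bot_iff]
        intro x hx xb
        by_contra x1
        have e1 := h.fix' r1 r2 (mem_centralizer_singleton_iff.1 hx) x1
        have e2 : ({a, b} : Set Ω).ncard ≤ (Fx Ω x).ncard := Set.ncard_le_ncard (by
          rintro z (rfl | rfl)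
          · exact Ca x hx
          · exact xb) (Set.toFinite _)
        rw [Set.ncard_pair hab] at e2
        omega
      rw [← index_stabilizer, c4, index_bot]
      omega
  have all : ∀ s : G, s ≠ 1 → s * s = 1 → s • a = a → s * g * s⁻¹ = g⁻¹ := fun s h1 h2 sa => by
    obtain ⟨y, rfl⟩ := isConj_iff.1 ((h.conj r1 r2).symm.trans (h.conj h1 h2))
    have ya : y • a = a := one _ h1 h2 _ _ (by rw [mul_smul, mul_smul, inv_smul_smul, ra]) sa
    have : y⁻¹ • b ∈ orbit C b := by
      rw [tr]; intro e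
      exact hab (by rw [← ya, ← show y⁻¹ • b = a from e, smul_inv_smul])
    obtain ⟨k, hk⟩ := this
    have hk : (k : G) • b = y⁻¹ • b := hk
    have e := h.comm hab (x := y * k) (y := g) (by rw [mul_smul, Ca k k.2, ya]) (by rw [mul_smul, hk, smul_inv_smul])
      ga gb
    have e2 := mem_centralizer_singleton_iff.1 k.2
    have e3 : y * r * y⁻¹ = y * k * r * (y * k)⁻¹ := by rw [mul_assoc y k, e2]; group
    rw [e3]
    generalize y * k = j at e
    calc _ = j * r * j⁻¹ * (g * j) * r⁻¹ * j⁻¹ := by group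
      _ = j * (r * g * r⁻¹) * j⁻¹ := by rw [← e]; group
      _ = (j * g * j⁻¹)⁻¹ := by rw [ri]; group
      _ = _ := by rw [e]; group
  intro E hE
  have : Nontrivial E := Finite.one_lt_card_iff_nontrivial.1 (by rw [hE.card_four]; norm_num)
  obtain ⟨x, x1⟩ := exists_ne (1 : E)
  obtain ⟨y, y1, yx⟩ : ∃ y : E, y ≠ 1 ∧ y ≠ x := by
    by_contra! hn
    have : (Set.univ : Set E) ⊆ {1, x} := fun y _ => by
      by_cases e : y = 1
      · exact Or.inl e
      · exact Or.inr (hn y e)
    have h1 := Set.ncard_le_ncard this (Set.toFinite _)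
    rw [Set.ncard_univ, hE.card_four, Set.ncard_pair x1.symm] at h1
    omega
  have sq : ∀ z : E, (z : G) * z = 1 := fun z => congrArg Subtype.val (IsKleinFour.mul_self z)
  have cm : ∀ z : E, (z : G) * x = x * z := fun z => by
    have h1 := sq (z * x)
    rw [coe_mul, ← eq_inv_iff_mul_eq_one, mul_inv_rev, ← eq_inv_iff_mul_eq_one.2 (sq z),
      ← eq_inv_iff_mul_eq_one.2 (sq x)] at h1
    exact h1
  obtain ⟨z, hz⟩ := ex x (sq x)
  have Ez : ∀ e : E, (e : G) • z = z := fun e => one x (fun e => x1 (Subtype.ext e)) (sq x) _ _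
    (by rw [← mul_smul, ← cm, mul_smul, hz]) hz
  have := h.two
  have : IsPretransitive G Ω := isPretransitive_of_is_two_pretransitive
  obtain ⟨k, hk⟩ := exists_smul_eq G z a
  have key : ∀ e : E, e ≠ 1 → k * e * k⁻¹ * g * (k * e * k⁻¹)⁻¹ = g⁻¹ := fun e e1 =>
    all _ (fun e0 => e1 (Subtype.ext (conj_eq_one_iff.1 e0)))
      (by rw [show k * e * k⁻¹ * (k * e * k⁻¹) = k * (e * e) * k⁻¹ by group, sq]; simp)
      (by rw [← hk, mul_smul, mul_smul, inv_smul_smul, Ez])
  have k1 := key x x1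
  have k2 := key y y1
  have k3 := key (x * y) fun e => yx (by
    rw [← mul_right_inj x, e]; exact Subtype.ext (sq x).symm)
  rw [show k * (x * y : E) * k⁻¹ = k * x * k⁻¹ * (k * y * k⁻¹) by rw [coe_mul]; group] at k3
  generalize k * x * k⁻¹ = p at k1 k3
  generalize k * y * k⁻¹ = q at k2 k3
  apply g2
  rw [← eq_inv_iff_mul_eq_one, ← k3]
  calc g = (p * g * p⁻¹)⁻¹ := by rw [k1, inv_inv]
    _ = p * g⁻¹ * p⁻¹ := by group
    _ = _ := by rw [← k2]; group

end Cfsg.Agent.HzT
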